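import Mathlib
import Cfsg.Prelude.Def_Transfer
import Cfsg.Agent.Cores.Basic
import Cfsg.Agent.PGroup.Frattini

/-!
Large extraspecial 2-subgroups: orthogonality of singular involutions is symmetric, and the
subgroups attached to a singular subgroup.
-/

set_option autoImplicit false

namespace Cfsg.Agent.LargeExtraspecial

open scoped commutatorElement

variable {G : Type*} [Group G]

/-- The two-core of the centralizer of an element. -/
def QFun (Q : G → Subgroup G) : Prop :=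
  ∀ x : G, Q x = (Cfsg.pCore 2 ↥(Subgroup.centralizer ({x} : Set G))).map
    (Subgroup.centralizer ({x} : Set G)).subtype

theorem commute_of_mem {Q : G → Subgroup G} (hQ : QFun Q) {x a : G} (ha : a ∈ Q x) :
    a * x = x * a := by
  rw [hQ] at ha
  obtain ⟨b, -, rfl⟩ := ha
  exact Subgroup.mem_centralizer_singleton_iff.mp b.2

theorem isPGroup_Q {Q : G → Subgroup G} (hQ : QFun Q) (x : G) : IsPGroup 2 ↥(Q x) := by
  rw [hQ]
  exact Cfsg.Agent.Cores.pCore_isPGroup.map _

theorem conj_mem_self {Q : G → Subgroup G} (hQ : QFun Q) {x a g : G} (ha : a ∈ Q x)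
    (hg : g * x = x * g) : g * a * g⁻¹ ∈ Q x := by
  rw [hQ] at ha ⊢
  obtain ⟨b, hb, rfl⟩ := ha
  exact ⟨⟨g, Subgroup.mem_centralizer_singleton_iff.mpr hg⟩ * b *
    ⟨g, Subgroup.mem_centralizer_singleton_iff.mpr hg⟩⁻¹,
    (inferInstance : (Cfsg.pCore 2 _).Normal).conj_mem b hb _, rfl⟩

theorem le_Q {Q : G → Subgroup G} (hQ : QFun Q) {x : G} {N : Subgroup G}
    (hc : ∀ a ∈ N, a * x = x * a) (hn : ∀ g, g * x = x * g → ∀ a ∈ N, g * a * g⁻¹ ∈ N)
    (hp : IsPGroup 2 ↥N) : N ≤ Q x := by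
  rw [hQ]
  set C := Subgroup.centralizer ({x} : Set G)
  have h : N.subgroupOf C ≤ Cfsg.pCore 2 ↥C := by
    refine Cfsg.Agent.Cores.le_pCore ⟨fun a ha g => ?_⟩ ?_
    · rw [Subgroup.mem_subgroupOf] at ha ⊢
      exact hn g (Subgroup.mem_centralizer_singleton_iff.mp g.2) a ha
    · exact hp.comap_of_injective C.subtype Subtype.val_injective
  intro a ha
  exact ⟨⟨a, Subgroup.mem_centralizer_singleton_iff.mpr (hc a ha)⟩, h ha, rfl⟩

theorem conj_mem {Q : G → Subgroup G} (hQ : QFun Q) {x a : G} (ha : a ∈ Q x) (g : G) :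
    g * a * g⁻¹ ∈ Q (g * x * g⁻¹) := by
  have h : (Q x).map (MulAut.conj g).toMonoidHom ≤ Q (g * x * g⁻¹) := by
    refine le_Q hQ ?_ ?_ ((isPGroup_Q hQ x).map _)
    · rintro _ ⟨b, hb, rfl⟩
      simp only [MulEquiv.coe_toMonoidHom, MulAut.conj_apply]
      have := commute_of_mem hQ hb
      rw [show g * b * g⁻¹ * (g * x * g⁻¹) = g * (b * x) * g⁻¹ by group, this]
      group
    · rintro k hk _ ⟨b, hb, rfl⟩
      refine ⟨g⁻¹ * k * g * b * (g⁻¹ * k * g)⁻¹, conj_mem_self hQ hb ?_, ?_⟩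
      · rw [show g⁻¹ * k * g * x = g⁻¹ * (k * (g * x * g⁻¹)) * g by group, hk]
        group
      · simp only [MulEquiv.coe_toMonoidHom, MulAut.conj_apply]
        group
  exact h ⟨a, ha, rfl⟩

/-- The properties of a centre of a large extraspecial 2-subgroup, at the level of `G`. -/
structure Good (Q : G → Subgroup G) (x : G) : Prop where
  ne_one : x ≠ 1
  sq_one : x * x = 1
  mem : x ∈ Q x
  comm : ∀ a ∈ Q x, ∀ b ∈ Q x, ⁅a, b⁆ = 1 ∨ ⁅a, b⁆ = x
  sq : ∀ a ∈ Q x, a * a = 1 ∨ a * a = x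
  center : ∀ a ∈ Q x, (∀ b ∈ Q x, a * b = b * a) → a = 1 ∨ a = x
  cent : ∀ g : G, (∀ b ∈ Q x, g * b = b * g) → g ∈ Q x

theorem good_base [Finite G] {Q : G → Subgroup G} (hQ : QFun Q) {z : G} (hz : orderOf z = 2)
    (hE : Cfsg.IsExtraspecial 2 ↥(Q z))
    (hC : Subgroup.centralizer ((Q z : Subgroup G) : Set G) ≤ Q z) : Good Q z := by
  have hz1 : z ≠ 1 := by
    intro h; rw [h, orderOf_one] at hz; omega
  have hzz : z * z = 1 := by rw [← pow_two, ← hz]; exact pow_orderOf_eq_one z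
  have hzQ : z ∈ Q z :=
    hC (Subgroup.mem_centralizer_iff.mpr fun b hb => commute_of_mem hQ hb)
  have hzc : (⟨z, hzQ⟩ : ↥(Q z)) ∈ Subgroup.center ↥(Q z) :=
    Subgroup.mem_center_iff.mpr fun b => Subtype.ext (commute_of_mem hQ b.2)
  obtain ⟨⟨hp, hfr, hder⟩, hcard⟩ := hE
  have hcent : ∀ c : ↥(Q z), c ∈ Subgroup.center ↥(Q z) → (c : G) = 1 ∨ (c : G) = z := by
    intro c hc
    obtain ⟨a, b, -, hab⟩ := Nat.card_eq_two_iff.mp hcard
    have hm : ∀ d : ↥(Subgroup.center ↥(Q z)), d = a ∨ d = b := fun d => by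
      have : d ∈ (Set.univ : Set ↥(Subgroup.center ↥(Q z))) := trivial
      rw [← hab] at this
      simpa using this
    have h1 := hm 1
    have h2 := hm ⟨_, hzc⟩
    have h12 : (1 : ↥(Subgroup.center ↥(Q z))) ≠ ⟨_, hzc⟩ := fun h =>
      hz1 (congrArg (fun d : ↥(Subgroup.center ↥(Q z)) => ((d : ↥(Q z)) : G)) h).symm
    have h3 : (⟨c, hc⟩ : ↥(Subgroup.center ↥(Q z))) = 1 ∨
        (⟨c, hc⟩ : ↥(Subgroup.center ↥(Q z))) = ⟨_, hzc⟩ := by
      rcases hm ⟨c, hc⟩ with h | h <;> rcases h1 with h1 | h1 <;> rcases h2 with h2 | h2 <;>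
        first
          | exact absurd (h1.trans h2.symm) h12
          | exact Or.inl (h.trans h1.symm)
          | exact Or.inr (h.trans h2.symm)
    rcases h3 with h | h
    · exact Or.inl (congrArg (fun d : ↥(Subgroup.center ↥(Q z)) => ((d : ↥(Q z)) : G)) h)
    · exact Or.inr (congrArg (fun d : ↥(Subgroup.center ↥(Q z)) => ((d : ↥(Q z)) : G)) h)
  refine ⟨hz1, hzz, hzQ, fun a ha b hb => ?_, fun a ha => ?_, fun a ha h => ?_,
    fun g hg => hC (Subgroup.mem_centralizer_iff.mpr fun b hb => (hg b hb).symm)⟩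
  · have : ⁅(⟨a, ha⟩ : ↥(Q z)), (⟨b, hb⟩ : ↥(Q z))⁆ ∈ Subgroup.center ↥(Q z) :=
      hder ▸ Subgroup.commutator_mem_commutator (Subgroup.mem_top _) (Subgroup.mem_top _)
    exact hcent _ this
  · have : (⟨a, ha⟩ : ↥(Q z)) ^ 2 ∈ Subgroup.center ↥(Q z) := by
      rw [← hfr]
      haveI : Fact (Nat.Prime 2) := ⟨Nat.prime_two⟩
      exact Cfsg.Agent.PGroup.pow_mem_frattini hp _
    have := hcent _ this
    simpa [pow_two] using this
  · exact hcent ⟨a, ha⟩ (Subgroup.mem_center_iff.mpr fun b => Subtype.ext (h b b.2).symm)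

theorem Good.conj {Q : G → Subgroup G} (hQ : QFun Q) {x : G} (hx : Good Q x) (g : G) :
    Good Q (g * x * g⁻¹) := by
  set y := g * x * g⁻¹ with hy
  have back : ∀ a ∈ Q y, g⁻¹ * a * g ∈ Q x := fun a ha => by
    have h := conj_mem hQ ha g⁻¹
    rwa [show g⁻¹ * y * g⁻¹⁻¹ = x by rw [hy]; group, inv_inv] at h
  have val : ∀ c : G, (g⁻¹ * c * g = 1 ∨ g⁻¹ * c * g = x) → c = 1 ∨ c = y := fun c h => by
    rcases h with h | h
    · left; rw [show c = g * (g⁻¹ * c * g) * g⁻¹ by group, h]; group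
    · right; rw [show c = g * (g⁻¹ * c * g) * g⁻¹ by group, h]
  refine ⟨fun h => hx.ne_one ?_, ?_, conj_mem hQ hx.mem g, fun a ha b hb => val _ ?_,
    fun a ha => val _ ?_, fun a ha h => val a ?_, fun k hk => ?_⟩
  · rw [show x = g⁻¹ * y * g by rw [hy]; group, h]; group
  · rw [hy, show g * x * g⁻¹ * (g * x * g⁻¹) = g * (x * x) * g⁻¹ by group, hx.sq_one]; group
  · have := hx.comm _ (back a ha) _ (back b hb)
    simp only [commutatorElement_def] at this ⊢
    rwa [show g⁻¹ * (a * b * a⁻¹ * b⁻¹) * g = g⁻¹ * a * g * (g⁻¹ * b * g) * (g⁻¹ * a * g)⁻¹ *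
      (g⁻¹ * b * g)⁻¹ by group]
  · have := hx.sq _ (back a ha)
    rwa [show g⁻¹ * (a * a) * g = g⁻¹ * a * g * (g⁻¹ * a * g) by group]
  · refine hx.center _ (back a ha) fun b hb => ?_
    have := h _ (conj_mem hQ hb g)
    rw [show g⁻¹ * a * g * b = g⁻¹ * (a * (g * b * g⁻¹)) * g by group, this]
    group
  · have := hx.cent (g⁻¹ * k * g) fun b hb => by
      have := hk _ (conj_mem hQ hb g)
      rw [show g⁻¹ * k * g * b = g⁻¹ * (k * (g * b * g⁻¹)) * g by group, this]
      group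
    have h := conj_mem hQ this g
    rwa [show g * (g⁻¹ * k * g) * g⁻¹ = k by group] at h

theorem conj_eq_of_comm {a b c : G} (h : ⁅a, b⁆ = c) : a * b * a⁻¹ = c * b := by
  rw [← h, commutatorElement_def]; group

theorem comm_eq_one_iff {a b : G} : ⁅a, b⁆ = 1 ↔ a * b = b * a :=
  commutatorElement_eq_one_iff_mul_comm

/-- An element of `Q x` not commuting with a noncentral `a`. -/
theorem Good.exists_noncomm {Q : G → Subgroup G} {x a : G} (hx : Good Q x) (ha : a ∈ Q x)
    (h1 : a ≠ 1) (h2 : a ≠ x) : ∃ q ∈ Q x, ⁅q, a⁆ = x := by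
  by_contra h
  push Not at h
  refine (hx.center a ha fun b hb => ?_).elim h1 h2
  rcases hx.comm b hb a ha with h' | h'
  · exact (comm_eq_one_iff.mp h').symm
  · exact absurd h' (h b hb)

theorem Good.central {Q : G → Subgroup G} (hQ : QFun Q) {x : G} {a : G} (ha : a ∈ Q x) :
    a * x * a⁻¹ = x := by
  rw [commute_of_mem hQ ha, mul_inv_cancel_right]

theorem Good.inv_comm {Q : G → Subgroup G} {x : G} (hx : Good Q x) {a b : G}
    (ha : a ∈ Q x) (hb : b ∈ Q x) : ⁅a, b⁆⁻¹ = ⁅a, b⁆ := by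
  rcases hx.comm a ha b hb with h | h <;> rw [h]
  · exact inv_one
  · exact inv_eq_of_mul_eq_one_left hx.sq_one

theorem Good.comm_symm {Q : G → Subgroup G} {x : G} (hx : Good Q x) {a b : G}
    (ha : a ∈ Q x) (hb : b ∈ Q x) : ⁅a, b⁆ = ⁅b, a⁆ := by
  rw [← commutatorElement_inv a b, hx.inv_comm ha hb]

/-- Commutators are multiplicative in the left argument. -/
theorem Good.comm_mul_left {Q : G → Subgroup G} (hQ : QFun Q) {x : G} (hx : Good Q x) {a b c : G}
    (ha : a ∈ Q x) (hb : b ∈ Q x) (hc : c ∈ Q x) : ⁅a * b, c⁆ = ⁅a, c⁆ * ⁅b, c⁆ := by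
  have h : ⁅a * b, c⁆ = (a * ⁅b, c⁆ * a⁻¹) * ⁅a, c⁆ := by
    simp only [commutatorElement_def]; group
  have hax := Good.central hQ ha
  have h2 := fun d (hd : d ∈ Q x) (e : G) (he : e ∈ Q x) => hx.comm d hd e he
  rcases h2 b hb c hc with h1 | h1 <;> rcases h2 a ha c hc with h3 | h3 <;>
    simp [h, h1, h3, hax]

theorem Good.comm_mul_right {Q : G → Subgroup G} (hQ : QFun Q) {x : G} (hx : Good Q x) {a b c : G}
    (ha : a ∈ Q x) (hb : b ∈ Q x) (hc : c ∈ Q x) : ⁅a, b * c⁆ = ⁅a, b⁆ * ⁅a, c⁆ := by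
  rw [hx.comm_symm ha (mul_mem hb hc), hx.comm_mul_left hQ hb hc ha, hx.comm_symm hb ha,
    hx.comm_symm hc ha]

theorem conj_mul_dist (k a b : G) : k * (a * b) * k⁻¹ = (k * a * k⁻¹) * (k * b * k⁻¹) := by group

theorem conj_conj_eq (k l a : G) : k * l * a * (k * l)⁻¹ = k * (l * a * l⁻¹) * k⁻¹ := by group

/-- If an element `r` moves `z` to `z * x`, the roles of `z` and `x` can be exchanged. -/
theorem exchange {Q : G → Subgroup G} (hQ : QFun Q) {z x : G} (hz : Good Q z)
    (hxz : x ∈ Q z) (hxx : x * x = 1) (hx1 : x ≠ 1) (hne : x ≠ z) {r : G}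
    (hrx : r * x * r⁻¹ = x) (hrz : r * z * r⁻¹ = z * x) : z ∈ Q x := by
  obtain ⟨q, hq, hqc⟩ := hz.exists_noncomm hxz hx1 hne
  have hqx : q * x * q⁻¹ = z * x := conj_eq_of_comm hqc
  have hqz : q * z * q⁻¹ = z := Good.central hQ hq
  have g1 : (q * r * q) * z * (q * r * q)⁻¹ = x := by
    rw [conj_conj_eq, hqz, conj_conj_eq, hrz, conj_mul_dist, hqz, hqx, ← mul_assoc, hz.sq_one,
      one_mul]
  have g2 : (q * r * q) * x * (q * r * q)⁻¹ = z := by
    rw [conj_conj_eq, hqx, conj_conj_eq, conj_mul_dist r, hrz, hrx, mul_assoc z x x, hxx, mul_one,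
      hqz]
  have := conj_mem hQ hxz (q * r * q)
  rwa [g1, g2] at this

/-- A dihedral `Q z` contains the centralizer of `z`. -/
theorem small_case {Q : G → Subgroup G} (hQ : QFun Q) {z x q : G} (hz : Good Q z)
    (hxz : x ∈ Q z) (hxx : x * x = 1) (hq : q ∈ Q z) (hqc : ⁅q, x⁆ = z)
    (hX : ∀ a ∈ Q z, a * x = x * a → a = 1 ∨ a = z ∨ a = x ∨ a = z * x)
    (g : G) (hg : g * z = z * g) : g ∈ Q z := by
  have hzz := hz.sq_one
  have hxi : x⁻¹ = x := inv_eq_of_mul_eq_one_left hxx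
  have hzx : z * x = x * z := (commute_of_mem hQ hxz).symm
  obtain ⟨s, hs, hsz, hsc⟩ : ∃ s ∈ Q z, s * s = z ∧ ⁅s, x⁆ = z := by
    rcases hz.sq q hq with h | h
    · refine ⟨q * x, mul_mem hq hxz, ?_, ?_⟩
      · rw [← hqc, commutatorElement_def, hxi, inv_eq_of_mul_eq_one_left h]
        simp only [mul_assoc]
      · rw [hz.comm_mul_left hQ hq hxz hxz, hqc, commutatorElement_self, mul_one]
    · exact ⟨q, hq, h, hqc⟩
  have hXsq : ∀ a ∈ Q z, a * x = x * a → a * a = 1 := by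
    intro a ha hc
    rcases hX a ha hc with h | h | h | h <;> rw [h]
    · simp
    · exact hzz
    · exact hxx
    · conv_lhs => arg 2; rw [hzx]
      rw [← mul_assoc, mul_assoc z x x, hxx, mul_one, hzz]
  have hcase : ∀ a ∈ Q z, a * x = x * a ∨ (s * a) * x = x * (s * a) := by
    intro a ha
    rcases hz.comm a ha x hxz with h | h
    · exact Or.inl (comm_eq_one_iff.mp h)
    · refine Or.inr (comm_eq_one_iff.mp ?_)
      rw [hz.comm_mul_left hQ hs ha hxz, hsc, h, hzz]
  have hCs : ∀ a ∈ Q z, ⁅a, s⁆ = 1 → ∀ k : G, k * z * k⁻¹ = z → k * s * k⁻¹ = s →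
      k * a * k⁻¹ = a := by
    intro a ha hc k hkz hks
    have main : ∀ b ∈ Q z, b * x = x * b → ⁅b, s⁆ = 1 → k * b * k⁻¹ = b := by
      intro b hb hbx hbs
      have hne1 : ⁅x, s⁆ = z := by rw [← hsc, hz.comm_symm hxz hs]
      have h1 : ⁅z, s⁆ = 1 := comm_eq_one_iff.mpr (commute_of_mem hQ hs).symm
      rcases hX b hb hbx with h | h | h | h
      · rw [h]; group
      · rw [h, hkz]
      · rw [h, hne1] at hbs; exact absurd hbs hz.ne_one
      · rw [h, hz.comm_mul_left hQ hz.mem hxz hs, h1, hne1, one_mul] at hbs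
        exact absurd hbs hz.ne_one
    rcases hcase a ha with h | h
    · exact main a ha h hc
    · have h2 := main (s * a) (mul_mem hs ha) h (by
        rw [hz.comm_mul_left hQ hs ha hs, commutatorElement_self, hc, one_mul])
      rw [conj_mul_dist, hks] at h2
      exact mul_left_cancel h2
  have fix2 : ∀ g : G, g * z = z * g → (g * g) * s * (g * g)⁻¹ = s := by
    intro g hg
    have hgz : g * z * g⁻¹ = z := by rw [hg, mul_inv_cancel_right]
    set t := g * s * g⁻¹ with ht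
    have htQ : t ∈ Q z := conj_mem_self hQ hs hg
    have htt : t * t = z := by rw [ht, ← conj_mul_dist, hsz, hgz]
    have htx : ¬ t * x = x * t := fun h => hz.ne_one (htt ▸ hXsq t htQ h)
    have hst := (hcase t htQ).resolve_left htx
    rcases hX _ (mul_mem hs htQ) hst with h | h | h | h
    · have ht' : t = s⁻¹ := eq_inv_of_mul_eq_one_right h
      rw [conj_conj_eq, ← ht, ht']
      rw [show g * s⁻¹ * g⁻¹ = t⁻¹ by rw [ht]; group, ht', inv_inv]
    · have ht' : t = s := by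
        rw [← hsz] at h
        exact mul_left_cancel h
      rw [conj_conj_eq, ← ht, ht', ← ht, ht']
    all_goals exfalso
    all_goals
      have h5 : ⁅t, s⁆ = z := by
        have h1 : ⁅s * t, s⁆ = ⁅t, s⁆ := by
          rw [hz.comm_mul_left hQ hs htQ hs, commutatorElement_self, one_mul]
        rw [← h1, h]
        first
          | rw [hz.comm_symm hxz hs, hsc]
          | rw [hz.comm_mul_left hQ hz.mem hxz hs, hz.comm_symm hxz hs, hsc,
              comm_eq_one_iff.mpr (commute_of_mem hQ hs).symm, one_mul]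
    all_goals
      have h4 : (s * t) * (s * t) = 1 := hXsq _ (mul_mem hs htQ) hst
    all_goals
      have h7 : t * s = z * (s * t) := by
        rw [← mul_assoc, ← conj_eq_of_comm h5, inv_mul_cancel_right]
    all_goals
      apply hz.ne_one
    all_goals
      have hzs : s * z = z * s := commute_of_mem hQ hs
      rw [mul_assoc, ← mul_assoc t s t, h7, mul_assoc z, mul_assoc s t t, htt,
        ← mul_assoc s z (s * z), hzs, mul_assoc z s, ← mul_assoc s z s, hzs, mul_assoc z s s, hsz,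
        hzz, mul_one] at h4
      exact h4
  have fix8 : ∀ g : G, g * z = z * g → g ^ 8 ∈ Q z := by
    intro g hg
    set k := g * g with hk
    have hgz : g * z * g⁻¹ = z := by rw [hg, mul_inv_cancel_right]
    have hkz : k * z * k⁻¹ = z := by rw [hk, conj_conj_eq, hgz, hgz]
    have hks : k * s * k⁻¹ = s := fix2 g hg
    set y := k * x * k⁻¹ * x with hy
    have hkxQ : k * x * k⁻¹ ∈ Q z := conj_mem_self hQ hxz (mul_inv_eq_iff_eq_mul.mp hkz)
    have hyQ : y ∈ Q z := mul_mem hkxQ hxz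
    have hys : ⁅y, s⁆ = 1 := by
      have : ⁅k * x * k⁻¹, s⁆ = z := by
        conv_lhs => arg 2; rw [← hks]
        rw [show ⁅k * x * k⁻¹, k * s * k⁻¹⁆ = k * ⁅x, s⁆ * k⁻¹ by
          simp only [commutatorElement_def]; group, hz.comm_symm hxz hs, hsc, hkz]
      rw [hy, hz.comm_mul_left hQ hkxQ hxz hs, this, hz.comm_symm hxz hs, hsc, hzz]
    have hky : k * y * k⁻¹ = y := hCs y hyQ hys k hkz hks
    have hkx : k * x * k⁻¹ = y * x := by
      rw [hy, mul_assoc (k * x * k⁻¹), hxx, mul_one]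
    have hy4 : y * y * y * y = 1 := by
      rcases hz.sq y hyQ with h | h
      · rw [h, one_mul, h]
      · rw [mul_assoc (y * y), h, hzz]
    have hstep : ∀ m u : G, m * x * m⁻¹ = u * x → k * u * k⁻¹ = u →
        (k * m) * x * (k * m)⁻¹ = (u * y) * x := by
      intro m u hm hu
      rw [conj_conj_eq, hm, conj_mul_dist, hu, hkx, mul_assoc u y x]
    have e2 := hstep k y hkx hky
    have e3 := hstep _ _ e2 (by rw [conj_mul_dist, hky])
    have e4 := hstep _ _ e3 (by rw [conj_mul_dist, conj_mul_dist, hky])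
    rw [hy4, one_mul, ← mul_assoc k k, ← mul_assoc (k * k) k] at e4
    have ez : k * k * k * k * z * (k * k * k * k)⁻¹ = z := by
      rw [conj_conj_eq, hkz, conj_conj_eq, hkz, conj_conj_eq, hkz, hkz]
    have es : k * k * k * k * s * (k * k * k * k)⁻¹ = s := by
      rw [conj_conj_eq, hks, conj_conj_eq, hks, conj_conj_eq, hks, hks]
    have e8 : g ^ 8 = k * k * k * k := by rw [hk]; simp [pow_succ, ← mul_assoc]
    rw [e8]
    generalize k * k * k * k = m at e4 ez es ⊢
    refine hz.cent m fun b hb => mul_inv_eq_iff_eq_mul.mp ?_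
    have fixX : ∀ c ∈ Q z, c * x = x * c → m * c * m⁻¹ = c := by
      intro c hc hcx
      rcases hX c hc hcx with rfl | rfl | rfl | rfl
      · group
      · exact ez
      · exact e4
      · rw [conj_mul_dist, ez, e4]
    rcases hcase b hb with h | h
    · exact fixX b hb h
    · have := fixX _ (mul_mem hs hb) h
      rw [conj_mul_dist, es] at this
      exact mul_left_cancel this
  have hp : IsPGroup 2 ↥(Subgroup.centralizer ({z} : Set G)) := by
    intro c
    obtain ⟨j, hj⟩ := isPGroup_Q hQ z ⟨_, fix8 c (Subgroup.mem_centralizer_singleton_iff.mp c.2)⟩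
    refine ⟨3 + j, Subtype.ext ?_⟩
    have := congrArg Subtype.val hj
    simpa [pow_add, pow_mul] using this
  exact le_Q hQ (N := Subgroup.centralizer ({z} : Set G))
    (fun a ha => Subgroup.mem_centralizer_singleton_iff.mp ha)
    (fun k hk a ha => mul_mem (mul_mem (Subgroup.mem_centralizer_singleton_iff.mpr hk) ha)
      (inv_mem (Subgroup.mem_centralizer_singleton_iff.mpr hk))) hp
    (Subgroup.mem_centralizer_singleton_iff.mpr hg)

/-- Orthogonality of singular involutions is symmetric. -/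
theorem orth_symm {Q : G → Subgroup G} (hQ : QFun Q) {z : G} (hz : Good Q z) (g : G)
    (hxz : g * z * g⁻¹ ∈ Q z) : z ∈ Q (g * z * g⁻¹) := by
  set x := g * z * g⁻¹ with hxdef
  have hx : Good Q x := hz.conj hQ g
  by_cases hne : x = z
  · rw [hne]; exact hz.mem
  have hzx : x * z = z * x := commute_of_mem hQ hxz
  have hzz := hz.sq_one
  have hxx := hx.sq_one
  have hzi : z⁻¹ = z := inv_eq_of_mul_eq_one_left hzz
  by_cases hA : ∃ r ∈ Q x, ⁅r, z⁆ = x
  · obtain ⟨r, hr, hrz⟩ := hA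
    refine exchange hQ hz hxz hxx hx.ne_one hne (Good.central hQ hr) ?_
    rw [conj_eq_of_comm hrz, hzx]
  push Not at hA
  by_contra hzR
  have cjR : ∀ r ∈ Q x, z * r * z ∈ Q x := fun r hr => by
    have := conj_mem_self hQ hr hzx.symm; rwa [hzi] at this
  have memc : ∀ r ∈ Q x, ⁅r, z⁆ ∈ Q x := fun r hr => by
    rw [show ⁅r, z⁆ = r * (z * r⁻¹ * z) by
      rw [commutatorElement_def]; conv_lhs => arg 2; rw [hzi]
      simp only [mul_assoc]]
    exact mul_mem hr (cjR _ (inv_mem hr))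
  have onlyone : ∀ r ∈ Q x, (⁅r, z⁆ = 1 ∨ ⁅r, z⁆ = x) → r * z = z * r := fun r hr h =>
    comm_eq_one_iff.mp (h.resolve_right (hA r hr))
  have step1 : ∀ r ∈ Q x, ⁅r, z⁆ * z = z * ⁅r, z⁆ := by
    intro r hr
    refine onlyone _ (memc r hr) ?_
    have h1 : ⁅⁅r, z⁆, z⁆ = ⁅r, z⁆ * ⁅r, z⁆ := by
      have hinv : z * ⁅r, z⁆⁻¹ * z = ⁅r, z⁆ := by
        simp only [commutatorElement_def, mul_inv_rev, inv_inv, hzi]
        simp only [← mul_assoc, hzz, one_mul]
      conv_lhs => rw [commutatorElement_def, hzi, mul_assoc, mul_assoc, ← mul_assoc z, hinv]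
    rw [h1]
    exact hx.sq _ (memc r hr)
  have step2 : ∀ s ∈ Q x, (∀ y ∈ Q x, y * z = z * y → ⁅s, y⁆ = 1) → s * z = z * s := by
    intro s hs hsy
    refine onlyone s hs (hx.center _ (memc s hs) fun r hr => comm_eq_one_iff.mp ?_)
    have e : ⁅s, z⁆ = s * (z * s⁻¹ * z) := by
      rw [commutatorElement_def]; conv_lhs => arg 2; rw [hzi]
      simp only [mul_assoc]
    have hts : ⁅z * s⁻¹ * z, r⁆ = ⁅s, z * r * z⁆ := by
      have h1 : ⁅z * s⁻¹ * z, r⁆ = z * ⁅s⁻¹, z * r * z⁆ * z⁻¹ := by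
        simp only [commutatorElement_def, mul_inv_rev, hzi]
        simp only [← mul_assoc, hzz, one_mul]
        simp only [mul_assoc, hzz, mul_one]
      have h2 : ⁅s⁻¹, z * r * z⁆ = ⁅s, z * r * z⁆ := by
        have h3 := hx.comm_mul_left hQ hs (inv_mem hs) (cjR r hr)
        rw [mul_inv_cancel, commutatorElement_one_left] at h3
        rw [eq_inv_of_mul_eq_one_right h3.symm, hx.inv_comm hs (cjR r hr)]
      rw [h1, h2]
      rcases hx.comm s hs _ (cjR r hr) with h | h <;> rw [h]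
      · group
      · rw [← hzx, mul_inv_cancel_right]
    rw [e, hx.comm_mul_left hQ hs (cjR _ (inv_mem hs)) hr, hts,
      ← hx.comm_mul_right hQ hs hr (cjR r hr)]
    refine hsy _ (mul_mem hr (cjR r hr)) ?_
    have h1 := step1 r hr
    have hw : r * (z * r * z) = ⁅r, z⁆ * (z * (r * r) * z) := by
      simp only [commutatorElement_def, hzi]
      simp only [mul_assoc]
      rw [← mul_assoc z z, hzz, one_mul, inv_mul_cancel_left]
    have h2 : z * (r * r) * z * z = z * (z * (r * r) * z) := by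
      rcases hx.sq r hr with h | h <;> rw [h]
      · simp [hzz]
      · simp only [mul_assoc, hzz, mul_one]
        rw [hzx, ← mul_assoc z z, hzz, one_mul]
    rw [hw, mul_assoc, h2, ← mul_assoc, h1, mul_assoc]
  have hXR : ∀ a ∈ Q z, a * x = x * a → ∀ r ∈ Q x, a * r * a⁻¹ ∈ Q x := fun a _ ha r hr =>
    conj_mem_self hQ hr ha
  obtain ⟨q, hq, hqc⟩ := hz.exists_noncomm hxz hx.ne_one hne
  have hI : ∀ i ∈ Q x, i ∈ Q z → i = 1 ∨ i = x := by
    intro i hiR hiQ
    have hiX : ∀ a ∈ Q z, a * x = x * a → ⁅i, a⁆ = 1 := by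
      intro a ha hax
      refine (hz.comm i hiQ a ha).resolve_right fun h => hzR ?_
      rw [← h, show ⁅i, a⁆ = i * (a * i⁻¹ * a⁻¹) by simp only [commutatorElement_def, mul_assoc]]
      exact mul_mem hiR (hXR a ha hax _ (inv_mem hiR))
    have gen : ∀ c ∈ Q z, (∀ a ∈ Q z, a * x = x * a → ⁅c, a⁆ = 1) → ⁅c, q⁆ = 1 →
        c = 1 ∨ c = z := by
      intro c hc hcX hcq
      refine hz.center c hc fun b hb => comm_eq_one_iff.mp ?_
      rcases hz.comm b hb x hxz with h | h
      · exact hcX b hb (comm_eq_one_iff.mp h)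
      · have h1 := hcX (q * b) (mul_mem hq hb) (comm_eq_one_iff.mp (by
          rw [hz.comm_mul_left hQ hq hb hxz, hqc, h, hzz]))
        rwa [hz.comm_mul_right hQ hc hq hb, hcq, one_mul] at h1
    rcases hz.comm i hiQ q hq with h | h
    · rcases gen i hiQ hiX h with h' | h'
      · exact Or.inl h'
      · exact absurd (h' ▸ hiR) hzR
    · have hx' : ∀ a ∈ Q z, a * x = x * a → ⁅i * x, a⁆ = 1 := fun a ha hax => by
        rw [hz.comm_mul_left hQ hiQ hxz ha, hiX a ha hax, one_mul]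
        exact comm_eq_one_iff.mpr hax.symm
      rcases gen _ (mul_mem hiQ hxz) hx' (by
        rw [hz.comm_mul_left hQ hiQ hxz hq, h, hz.comm_symm hxz hq, hqc, hzz]) with h' | h'
      · right
        rw [eq_inv_of_mul_eq_one_left h', inv_eq_of_mul_eq_one_left hxx]
      · exact absurd (h' ▸ mul_mem hiR hx.mem) hzR
  have stepY : ∀ a ∈ Q z, a * x = x * a → ∀ y ∈ Q x, y * z = z * y →
      ⁅a, y⁆ = 1 ∨ ⁅a, y⁆ = x := by
    intro a ha hax y hy hyz
    refine hI _ ?_ ?_
    · rw [commutatorElement_def]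
      exact mul_mem (hXR a ha hax y hy) (inv_mem hy)
    · rw [show ⁅a, y⁆ = a * (y * a⁻¹ * y⁻¹) by simp only [commutatorElement_def, mul_assoc]]
      exact mul_mem ha (conj_mem_self hQ (inv_mem ha) hyz)
  have stepR : ∀ a ∈ Q z, a * x = x * a → ∀ r ∈ Q x, ⁅a, r⁆ * z = z * ⁅a, r⁆ := by
    intro a ha hax r hr
    have hmem : ⁅a, r⁆ ∈ Q x := by
      rw [commutatorElement_def]; exact mul_mem (hXR a ha hax r hr) (inv_mem hr)
    refine step2 _ hmem fun y hy hyz => ?_
    have hai : a⁻¹ * x = x * a⁻¹ := (Commute.inv_left (show Commute a x from hax)).eq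
    have hy' : a⁻¹ * y * a ∈ Q x := by
      have := hXR a⁻¹ (inv_mem ha) hai y hy; rwa [inv_inv] at this
    obtain ⟨e, he, hye⟩ : ∃ e, (e = 1 ∨ e = x) ∧ a⁻¹ * y * a = e * y := by
      refine ⟨⁅a⁻¹, y⁆, stepY _ (inv_mem ha) hai y hy hyz, ?_⟩
      rw [← conj_eq_of_comm rfl, inv_inv]
    have heQ : e ∈ Q x := by rcases he with rfl | rfl; exacts [one_mem _, hx.mem]
    have hre : ⁅r, e⁆ = 1 := by
      rcases he with rfl | rfl
      · exact commutatorElement_one_right r
      · exact comm_eq_one_iff.mpr (commute_of_mem hQ hr)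
    have h1 : ⁅a * r * a⁻¹, y⁆ = ⁅r, y⁆ := by
      rw [show ⁅a * r * a⁻¹, y⁆ = a * ⁅r, a⁻¹ * y * a⁆ * a⁻¹ by
        simp only [commutatorElement_def]; group, hye, hx.comm_mul_right hQ hr heQ hy, hre,
        one_mul]
      rcases hx.comm r hr y hy with h | h <;> rw [h]
      · group
      · rw [hax, mul_inv_cancel_right]
    have h2 : ⁅r⁻¹, y⁆ = ⁅r, y⁆ := by
      have h3 := hx.comm_mul_left hQ hr (inv_mem hr) hy
      rw [mul_inv_cancel, commutatorElement_one_left] at h3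
      rw [eq_inv_of_mul_eq_one_right h3.symm, hx.inv_comm hr hy]
    rw [show ⁅a, r⁆ = a * r * a⁻¹ * r⁻¹ from commutatorElement_def a r,
      hx.comm_mul_left hQ (hXR a ha hax r hr) (inv_mem hr) hy, h1, h2]
    rcases hx.comm r hr y hy with h | h <;> rw [h]
    · exact one_mul 1
    · exact hxx
  by_cases hab : ∃ a ∈ Q z, a * x = x * a ∧ ∃ b ∈ Q z, b * x = x * b ∧ ⁅a, b⁆ = z
  · obtain ⟨a, ha, hax, b, hb, hbx, hc⟩ := hab
    -- conjugation by a*b and by b*a agree on `Q x` modulo the centre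
    have act : ∀ a ∈ Q z, a * x = x * a → ∀ b ∈ Q z, b * x = x * b → ∀ r ∈ Q x,
        ∃ e, (e = 1 ∨ e = x) ∧ a * b * r * (a * b)⁻¹ = e * ⁅b, r⁆ * (⁅a, r⁆ * r) := by
      intro a ha hax b hb hbx r hr
      have hbm : ⁅b, r⁆ ∈ Q x := by
        rw [commutatorElement_def]; exact mul_mem (hXR b hb hbx r hr) (inv_mem hr)
      refine ⟨⁅a, ⁅b, r⁆⁆, stepY a ha hax _ hbm (stepR b hb hbx r hr), ?_⟩
      rw [conj_conj_eq, conj_eq_of_comm (a := b) rfl, conj_mul_dist,
        conj_eq_of_comm (a := a) (b := ⁅b, r⁆) rfl, conj_eq_of_comm (a := a) (b := r) rfl]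
    have hkill : ∀ r ∈ Q x, r * z = z * r := by
      intro r hr
      have hbax : (b * a) * x = x * (b * a) := by rw [mul_assoc, hax, ← mul_assoc, hbx, mul_assoc]
      set r' := (b * a)⁻¹ * r * (b * a) with hr'
      have hr'Q : r' ∈ Q x := by
        have := conj_mem_self hQ hr (g := (b * a)⁻¹)
          ((Commute.inv_left (show Commute (b * a) x from hbax)).eq)
        rwa [inv_inv] at this
      obtain ⟨e, he, h1⟩ := act a ha hax b hb hbx r' hr'Q
      obtain ⟨f, hf, h2⟩ := act b hb hbx a ha hax r' hr'Q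
      have hr2 : r = b * a * r' * (b * a)⁻¹ := by rw [hr']; group
      have hzr : z * r * z⁻¹ = a * b * r' * (a * b)⁻¹ := by
        rw [← hc, commutatorElement_def, hr']; group
      rw [h2] at hr2
      rw [h1] at hzr
      have m1 : ∀ a ∈ Q z, a * x = x * a → ⁅a, r'⁆ ∈ Q x := fun a ha hax => by
        rw [commutatorElement_def]; exact mul_mem (hXR a ha hax r' hr'Q) (inv_mem hr'Q)
      have hcm : ∃ d, (d = 1 ∨ d = x) ∧ ⁅b, r'⁆ * ⁅a, r'⁆ = d * (⁅a, r'⁆ * ⁅b, r'⁆) :=
        ⟨⁅⁅b, r'⁆, ⁅a, r'⁆⁆, hx.comm _ (m1 b hb hbx) _ (m1 a ha hax), by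
          simp only [commutatorElement_def]; group⟩
      obtain ⟨d, hd, hcm⟩ := hcm
      refine onlyone r hr ?_
      have hval : ∀ u v : G, (u = 1 ∨ u = x) → (v = 1 ∨ v = x) → u * v = 1 ∨ u * v = x := by
        rintro u v (rfl | rfl) (rfl | rfl) <;> simp [hxx]
      have hzr' : z * r * z⁻¹ = (e * d * f) * r := by
        rw [hzr, hr2]
        have hff : f * f = 1 := by rcases hf with rfl | rfl <;> simp [hxx]
        calc e * ⁅b, r'⁆ * (⁅a, r'⁆ * r') = e * (⁅b, r'⁆ * ⁅a, r'⁆) * r' := by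
              simp only [mul_assoc]
          _ = e * d * 1 * (⁅a, r'⁆ * ⁅b, r'⁆) * r' := by rw [hcm]; simp only [mul_assoc, one_mul]
          _ = e * d * f * (f * ⁅a, r'⁆ * (⁅b, r'⁆ * r')) := by
              rw [← hff]; simp only [mul_assoc]
      have hedf := hval _ f (hval e d he hd) hf
      rw [show ⁅r, z⁆ = r * (z * r * z⁻¹)⁻¹ by rw [commutatorElement_def]; group, hzr',
        mul_inv_rev, mul_inv_cancel_left]
      rcases hedf with h | h <;> rw [h]
      · exact Or.inl inv_one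
      · exact Or.inr (inv_eq_of_mul_eq_one_left hxx)
    exact hzR (hx.cent z fun r hr => (hkill r hr).symm)
  · -- the centralizer of x in `Q z` is abelian, so `Q z` is dihedral
    push Not at hab
    have hX : ∀ a ∈ Q z, a * x = x * a → a = 1 ∨ a = z ∨ a = x ∨ a = z * x := by
      intro a ha hax
      have gen : ∀ c ∈ Q z, c * x = x * c → ⁅c, q⁆ = 1 → c = 1 ∨ c = z := by
        intro c hc hcx hcq
        refine hz.center c hc fun b hb => comm_eq_one_iff.mp ?_
        rcases hz.comm b hb x hxz with h | h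
        · exact (hz.comm c hc b hb).resolve_right (hab c hc hcx b hb (comm_eq_one_iff.mp h))
        · have hqb : (q * b) * x = x * (q * b) := comm_eq_one_iff.mp (by
            rw [hz.comm_mul_left hQ hq hb hxz, hqc, h, hzz])
          have h1 := (hz.comm c hc _ (mul_mem hq hb)).resolve_right
            (hab c hc hcx _ (mul_mem hq hb) hqb)
          rwa [hz.comm_mul_right hQ hc hq hb, hcq, one_mul] at h1
      rcases hz.comm a ha q hq with h | h
      · rcases gen a ha hax h with h' | h'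
        · exact Or.inl h'
        · exact Or.inr (Or.inl h')
      · rcases gen (a * x) (mul_mem ha hxz) (by rw [← mul_assoc x a x, ← hax])
          (by rw [hz.comm_mul_left hQ ha hxz hq, h, hz.comm_symm hxz hq, hqc, hzz]) with h' | h'
        · exact Or.inr (Or.inr (Or.inl (by
            rw [eq_inv_of_mul_eq_one_left h', inv_eq_of_mul_eq_one_left hxx])))
        · refine Or.inr (Or.inr (Or.inr ?_))
          rw [← h', mul_assoc, hxx, mul_one]
    refine hzR ?_
    have hg : g⁻¹ * z * g * z = z * (g⁻¹ * z * g) := by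
      rw [show g⁻¹ * z * g * z = g⁻¹ * (z * (g * z * g⁻¹)) * g by group, ← hxdef, ← hzx, hxdef]
      group
    have := conj_mem hQ (small_case hQ hz hxz hxx hq hqc hX _ hg) g
    rwa [show g * (g⁻¹ * z * g) * g⁻¹ = z by group] at this

end Cfsg.Agent.LargeExtraspecial
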