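import Cfsg.Agent.LargeExtraspecial.Singular

/-!
Singular subgroups for a large extraspecial 2-subgroup.
-/

set_option autoImplicit false

namespace Cfsg.Agent.LargeExtraspecial

open scoped commutatorElement

variable {G : Type*} [Group G]

/-- The hypotheses on a singular subgroup. -/
structure Singular (Q : G → Subgroup G) (U : Subgroup G) : Prop where
  fun_eq : QFun Q
  good : ∀ u ∈ U, u ≠ 1 → Good Q u
  invol : ∀ u ∈ U, u * u = 1
  orth : ∀ u ∈ U, ∀ v ∈ U, u ≠ 1 → v ≠ 1 → v ∈ Q u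

theorem Singular.le_Q {Q : G → Subgroup G} {U : Subgroup G} (S : Singular Q U) {u : G}
    (hu : u ∈ U) (hu1 : u ≠ 1) {v : G} (hv : v ∈ U) : v ∈ Q u := by
  by_cases hv1 : v = 1
  · rw [hv1]; exact one_mem _
  · exact S.orth u hu v hv hu1 hv1

theorem Singular.commute {Q : G → Subgroup G} {U : Subgroup G} (S : Singular Q U) {u v : G}
    (hu : u ∈ U) (hv : v ∈ U) : u * v = v * u := by
  have h := S.invol _ (mul_mem hu hv)
  have hui : u⁻¹ = u := inv_eq_of_mul_eq_one_left (S.invol u hu)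
  have hvi : v⁻¹ = v := inv_eq_of_mul_eq_one_left (S.invol v hv)
  rw [eq_inv_of_mul_eq_one_left h, mul_inv_rev, hui, hvi]

theorem singular_of_hyps [Finite G] {Q : G → Subgroup G} (hQ : QFun Q) {z : G}
    (hz : orderOf z = 2) (hE : Cfsg.IsExtraspecial 2 ↥(Q z))
    (hC : Subgroup.centralizer ((Q z : Subgroup G) : Set G) ≤ Q z) {U : Subgroup G}
    (hU2 : ∀ u ∈ U, u * u = 1) (hS : ∀ u ∈ U, u ≠ 1 → ∃ g : G, g * z * g⁻¹ = u)
    (hO : ∀ u ∈ U, ∀ v ∈ U, u ≠ 1 → v ≠ 1 → v ∈ Q u) : Singular Q U := by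
  refine ⟨hQ, fun u hu hu1 => ?_, hU2, hO⟩
  obtain ⟨g, rfl⟩ := hS u hu hu1
  exact (good_base hQ hz hE hC).conj hQ g

/-- The common part of the cores at two points lies in the core at their product. -/
theorem Singular.mem_mul {Q : G → Subgroup G} {U : Subgroup G} (S : Singular Q U) {u v a : G}
    (hu : u ∈ U) (hv : v ∈ U) (hu1 : u ≠ 1) (hv1 : v ≠ 1) (hne : v ≠ u)
    (hau : a ∈ Q u) (hav : a ∈ Q v) : a ∈ Q (u * v) := by
  obtain ⟨q, hq, hqc⟩ := (S.good u hu hu1).exists_noncomm (S.le_Q hu hu1 hv) hv1 hne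
  have hb : q⁻¹ * a * q ∈ Q v := by
    have := conj_eq_of_comm (a := q⁻¹) (b := a) rfl
    rw [inv_inv] at this
    rw [this]
    refine mul_mem ?_ hav
    rcases (S.good u hu hu1).comm _ (inv_mem hq) a hau with h | h <;> rw [h]
    · exact one_mem _
    · exact S.le_Q hv hv1 hu
  have := conj_mem S.fun_eq hb q
  rwa [conj_eq_of_comm hqc, show q * (q⁻¹ * a * q) * q⁻¹ = a by group] at this

/-- Conjugation by an element of a core at a point of `U` keeps `U`. -/
theorem Singular.conj_point {Q : G → Subgroup G} {U : Subgroup G} (S : Singular Q U) {u v q : G}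
    (hu : u ∈ U) (hu1 : u ≠ 1) (hv : v ∈ U) (hq : q ∈ Q u) : q * v * q⁻¹ ∈ U := by
  rw [conj_eq_of_comm rfl]
  refine mul_mem ?_ hv
  rcases (S.good u hu hu1).comm q hq v (S.le_Q hu hu1 hv) with h | h <;> rw [h]
  · exact one_mem _
  · exact hu

/-- Separation inside an extraspecial core. -/
theorem Good.separate {Q : G → Subgroup G} (hQ : QFun Q) {u : G} (hu : Good Q u) (A : Subgroup G)
    [Finite G] (hA : A ≤ Q u) (huA : u ∈ A) {v : G} (hv : v ∈ Q u) (hvA : v ∉ A) :
    ∃ q ∈ Q u, (∀ a ∈ A, ⁅q, a⁆ = 1) ∧ ⁅q, v⁆ = u := by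
  classical
  have key : ∀ T : Finset G, (∀ t ∈ T, t ∈ Q u) → ∀ v ∈ Q u,
      (∀ q ∈ Q u, (∀ t ∈ T, ⁅q, t⁆ = 1) → ⁅q, v⁆ = 1) →
      v ∈ Subgroup.closure (insert u (T : Set G)) := by
    intro T
    induction T using Finset.induction with
    | empty =>
      intro _ v hv h
      rcases hu.center v hv (fun b hb => (comm_eq_one_iff.mp (h b hb (by simp))).symm) with
        h' | h' <;> rw [h']
      · exact one_mem _
      · exact Subgroup.subset_closure (Set.mem_insert _ _)
    | insert a T haT ih =>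
      intro hT v hv h
      have haQ : a ∈ Q u := hT a (Finset.mem_insert_self _ _)
      have ih' := ih fun t ht => hT t (Finset.mem_insert_of_mem ht)
      have hmono : Subgroup.closure (insert u (T : Set G)) ≤
          Subgroup.closure (insert u ((insert a T : Finset G) : Set G)) := by
        refine Subgroup.closure_mono (Set.insert_subset_insert ?_)
        simp
      have haC : a ∈ Subgroup.closure (insert u ((insert a T : Finset G) : Set G)) :=
        Subgroup.subset_closure (Set.mem_insert_of_mem _ (by simp))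
      by_cases hc : ∀ q ∈ Q u, (∀ t ∈ T, ⁅q, t⁆ = 1) → ⁅q, a⁆ = 1
      · refine hmono (ih' v hv fun q hq hqT => h q hq fun t ht => ?_)
        rcases Finset.mem_insert.mp ht with rfl | ht
        · exact hc q hq hqT
        · exact hqT t ht
      · push Not at hc
        obtain ⟨q0, hq0, hq0T, hq0a⟩ := hc
        have hq0a' : ⁅q0, a⁆ = u := (hu.comm _ hq0 _ haQ).resolve_left hq0a
        -- correct `v` by a power of `a`
        obtain ⟨e, he, hev⟩ : ∃ e, (e = 1 ∨ e = a) ∧ ⁅q0, v * e⁆ = 1 := by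
          rcases hu.comm _ hq0 _ hv with h1 | h1
          · exact ⟨1, Or.inl rfl, by rw [mul_one, h1]⟩
          · exact ⟨a, Or.inr rfl, by rw [hu.comm_mul_right hQ hq0 hv haQ, h1, hq0a', hu.sq_one]⟩
        have heQ : e ∈ Q u := by rcases he with rfl | rfl; exacts [one_mem _, haQ]
        have hve : v * e ∈ Subgroup.closure (insert u (T : Set G)) := by
          refine ih' _ (mul_mem hv heQ) fun q hq hqT => ?_
          have good : ∀ r ∈ Q u, (∀ t ∈ T, ⁅r, t⁆ = 1) → ⁅r, a⁆ = 1 → ⁅r, v * e⁆ = 1 := by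
            intro r hr hrT hra
            rw [hu.comm_mul_right hQ hr hv heQ, h r hr (fun t ht => by
              rcases Finset.mem_insert.mp ht with rfl | ht
              exacts [hra, hrT t ht])]
            rcases he with rfl | rfl
            · simp
            · simp [hra]
          rcases hu.comm q hq a haQ with h1 | h1
          · exact good q hq hqT h1
          · have h2 := good (q0 * q) (mul_mem hq0 hq)
              (fun t ht => by
                rw [hu.comm_mul_left hQ hq0 hq (hT t (Finset.mem_insert_of_mem ht)), hq0T t ht,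
                  hqT t ht, one_mul])
              (by rw [hu.comm_mul_left hQ hq0 hq haQ, hq0a', h1, hu.sq_one])
            rwa [hu.comm_mul_left hQ hq0 hq (mul_mem hv heQ), hev, one_mul] at h2
        have : v = v * e * e⁻¹ := by group
        rw [this]
        refine mul_mem (hmono hve) (inv_mem ?_)
        rcases he with rfl | rfl
        exacts [one_mem _, haC]
  by_contra hcon
  push Not at hcon
  refine hvA ?_
  have := key (Set.toFinite (A : Set G)).toFinset (fun t ht => hA (by simpa using ht)) v hv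
    (fun q hq hqA => (hu.comm q hq v hv).resolve_right
      (hcon q hq fun a ha => hqA a (by simpa using ha)))
  refine (Subgroup.closure_le A).mpr ?_ this
  intro a ha
  rcases Set.mem_insert_iff.mp ha with rfl | ha
  · exact huA
  · simpa using ha

theorem Singular.iInf_eq {Q : G → Subgroup G} {U : Subgroup G} (S : Singular Q U) {T : Set G}
    (hT : Subgroup.closure T = U) (hT1 : (1 : G) ∉ T) :
    (⨅ u ∈ ((U : Set G) \ {1}), Q u) = ⨅ t ∈ T, Q t := by
  have hTU : ∀ t ∈ T, t ∈ U := fun t ht => hT ▸ Subgroup.subset_closure ht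
  refine le_antisymm (le_iInf₂ fun t ht => iInf₂_le t ⟨hTU t ht, fun h => hT1 (h ▸ ht)⟩) ?_
  intro a ha
  simp only [Subgroup.mem_iInf] at ha ⊢
  suffices h : ∀ u ∈ U, u = 1 ∨ a ∈ Q u from fun u hu => (h u hu.1).resolve_left (by simpa using hu.2)
  intro u hu
  rw [← hT] at hu
  suffices h : u ∈ U ∧ (u = 1 ∨ a ∈ Q u) from h.2
  induction hu using Subgroup.closure_induction with
  | mem x hx => exact ⟨hTU x hx, Or.inr (ha x hx)⟩
  | one => exact ⟨one_mem _, Or.inl rfl⟩
  | mul x y _ _ hx hy =>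
    refine ⟨mul_mem hx.1 hy.1, ?_⟩
    rcases hx.2 with rfl | hx'
    · rw [one_mul]; exact hy.2
    rcases hy.2 with rfl | hy'
    · rw [mul_one]; exact Or.inr hx'
    by_cases hx1 : x = 1
    · subst hx1; rw [one_mul]; exact Or.inr hy'
    by_cases hy1 : y = 1
    · subst hy1; rw [mul_one]; exact Or.inr hx'
    by_cases hxy : y = x
    · subst hxy; exact Or.inl (S.invol _ hx.1)
    · exact Or.inr (S.mem_mul hx.1 hy.1 hx1 hy1 hxy hx' hy')
  | inv x _ hx =>
    rw [inv_eq_of_mul_eq_one_left (S.invol x hx.1)]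
    exact hx

theorem Singular.le_normalizer {Q : G → Subgroup G} {U : Subgroup G} [Finite G]
    (S : Singular Q U) :
    (⨆ u ∈ ((U : Set G) \ {1}), Q u) ≤ Subgroup.normalizer (U : Set G) := by
  refine iSup₂_le fun u hu q hq => ?_
  have hu1 : u ≠ 1 := by simpa using hu.2
  refine Subgroup.mem_normalizer_iff.mpr fun v => ⟨fun hv => S.conj_point hu.1 hu1 hv hq, fun h => ?_⟩
  have := S.conj_point hu.1 hu1 h (inv_mem hq)
  rwa [inv_inv, show q⁻¹ * (q * v * q⁻¹) * q = v by group] at this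

/-- Every automorphism of a singular subgroup is induced from the cores at its points. -/
theorem Singular.exists_induce {Q : G → Subgroup G} {U : Subgroup G} [Finite G]
    (S : Singular Q U) (φ : ↥U ≃* ↥U) :
    ∃ g ∈ (⨆ u ∈ ((U : Set G) \ {1}), Q u), ∀ u : ↥U, g * (u : G) * g⁻¹ = ((φ u : ↥U) : G) := by
  classical
  set L := ⨆ u ∈ ((U : Set G) \ {1}), Q u with hL
  suffices h : ∀ T : Finset ↥U, ∃ g ∈ L, ∀ t ∈ T, g * (t : G) * g⁻¹ = ((φ t : ↥U) : G) by
    haveI := Fintype.ofFinite ↥U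
    obtain ⟨g, hg, h⟩ := h Finset.univ
    exact ⟨g, hg, fun u => h u (Finset.mem_univ u)⟩
  intro T
  induction T using Finset.induction with
  | empty => exact ⟨1, one_mem _, by simp⟩
  | insert v T hvT ih =>
    obtain ⟨g, hgL, hg⟩ := ih
    set A := Subgroup.closure (T : Set ↥U)
    have hA : ∀ a ∈ A, g * (a : G) * g⁻¹ = ((φ a : ↥U) : G) := by
      intro a ha
      induction ha using Subgroup.closure_induction with
      | mem x hx => exact hg x hx
      | one => simp
      | mul x y _ _ hx hy => simp [← hx, ← hy]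
      | inv x _ hx => simp only [Subgroup.coe_inv, map_inv, ← hx]; group
    have hgN := S.le_normalizer (inv_mem hgL)
    set v' : ↥U := ⟨g⁻¹ * ((φ v : ↥U) : G) * g⁻¹⁻¹,
      (Subgroup.mem_normalizer_iff.mp hgN _).mp (φ v).2⟩ with hv'
    have hgv' : g * (v' : G) * g⁻¹ = ((φ v : ↥U) : G) := by simp [hv']; group
    by_cases hvA : v ∈ A
    · refine ⟨g, hgL, fun t ht => ?_⟩
      rcases Finset.mem_insert.mp ht with rfl | ht
      exacts [hA _ hvA, hg t ht]
    by_cases hvv : v' = v
    · refine ⟨g, hgL, fun t ht => ?_⟩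
      rcases Finset.mem_insert.mp ht with rfl | ht
      · rw [← hgv', hvv]
      · exact hg t ht
    have hv'A : v' ∉ A := by
      intro h
      have h2 := hA _ h
      rw [hgv'] at h2
      exact hvA (φ.injective (Subtype.ext h2) ▸ h)
    set u : ↥U := v * v' with hu
    have huu : ∀ w : ↥U, w * w = 1 := fun w => Subtype.ext (S.invol w w.2)
    have hcomm : ∀ a b : ↥U, a * b = b * a := fun a b => Subtype.ext (S.commute a.2 b.2)
    have hu1 : (u : G) ≠ 1 := by
      intro h
      have h' : v * v' = 1 := Subtype.ext h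
      exact hvv (by rw [eq_inv_of_mul_eq_one_right h', inv_eq_of_mul_eq_one_left (huu v)])
    set A' : Subgroup ↥U :=
      { carrier := {w | w ∈ A ∨ w * u ∈ A}
        one_mem' := Or.inl (one_mem _)
        mul_mem' := by
          rintro a b (ha | ha) (hb | hb)
          · exact Or.inl (mul_mem ha hb)
          · exact Or.inr (by rw [mul_assoc]; exact mul_mem ha hb)
          · exact Or.inr (by rw [mul_assoc, hcomm b u, ← mul_assoc]; exact mul_mem ha hb)
          · left
            have := mul_mem ha hb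
            rwa [mul_assoc, hcomm u (b * u), mul_assoc, huu, mul_one] at this
        inv_mem' := by
          intro a ha
          rwa [inv_eq_of_mul_eq_one_left (huu a)] } with hA'
    have hvA' : v ∉ A' := by
      rintro (h | h)
      · exact hvA h
      · rw [hu, ← mul_assoc, huu, one_mul] at h; exact hv'A h
    obtain ⟨q, hq, hqA, hqv⟩ := (S.good u u.2 hu1).separate S.fun_eq (A'.map U.subtype)
      (by rintro _ ⟨a, -, rfl⟩; exact S.le_Q u.2 hu1 a.2)
      ⟨u, Or.inr (by rw [huu]; exact one_mem _), rfl⟩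
      (S.le_Q u.2 hu1 v.2)
      (by rintro ⟨a, ha, h⟩; exact hvA' (Subtype.ext h ▸ ha))
    have hqL : q ∈ L := (le_iSup₂ (f := fun w (_ : w ∈ ((U : Set G) \ {1})) => Q w) (u : G)
      ⟨u.2, by simpa using hu1⟩) hq
    refine ⟨g * q, mul_mem hgL hqL, fun t ht => ?_⟩
    rcases Finset.mem_insert.mp ht with rfl | ht
    · rw [conj_conj_eq, conj_eq_of_comm hqv, ← hgv']
      congr 2
      rw [hcomm t v'] at hu
      rw [hu]
      simp only [Subgroup.coe_mul, mul_assoc, S.invol t t.2, mul_one]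
    · rw [conj_conj_eq, conj_eq_of_comm (hqA t ⟨t, Or.inl (Subgroup.subset_closure ht), rfl⟩),
        one_mul]
      exact hg t ht

/-- The joined cores centralize the common core modulo `U`. -/
theorem Singular.centralizes_mod {Q : G → Subgroup G} {U : Subgroup G} [Finite G]
    (S : Singular Q U) {g : G} (hg : g ∈ ⨆ u ∈ ((U : Set G) \ {1}), Q u) {x : G}
    (hx : x ∈ ⨅ u ∈ ((U : Set G) \ {1}), Q u) : g * x * g⁻¹ * x⁻¹ ∈ U := by
  simp only [Subgroup.mem_iInf] at hx
  let M : Subgroup G :=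
    { carrier := {g | g ∈ Subgroup.normalizer (U : Set G) ∧
        ∀ x, (∀ u ∈ ((U : Set G) \ {1}), x ∈ Q u) → g * x * g⁻¹ * x⁻¹ ∈ U}
      one_mem' := ⟨one_mem _, fun x _ => by simp⟩
      mul_mem' := by
        rintro a b ⟨ha, ha'⟩ ⟨hb, hb'⟩
        refine ⟨mul_mem ha hb, fun x hx => ?_⟩
        have h1 := (Subgroup.mem_normalizer_iff.mp ha _).mp (hb' x hx)
        rw [show a * b * x * (a * b)⁻¹ * x⁻¹ = a * (b * x * b⁻¹ * x⁻¹) * a⁻¹ *
          (a * x * a⁻¹ * x⁻¹) by group]
        exact mul_mem h1 (ha' x hx)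
      inv_mem' := by
        rintro a ⟨ha, ha'⟩
        refine ⟨inv_mem ha, fun x hx => ?_⟩
        have h1 := inv_mem (ha' x hx)
        have h2 := (Subgroup.mem_normalizer_iff.mp (inv_mem ha) _).mp h1
        rw [show a⁻¹ * x * a⁻¹⁻¹ * x⁻¹ = a⁻¹ * (a * x * a⁻¹ * x⁻¹)⁻¹ * a⁻¹⁻¹ by group]
        exact h2 }
  have : (⨆ u ∈ ((U : Set G) \ {1}), Q u) ≤ M := by
    refine iSup₂_le fun u hu q hq => ⟨S.le_normalizer
      ((le_iSup₂ (f := fun w (_ : w ∈ ((U : Set G) \ {1})) => Q w) u hu) hq), fun x hx => ?_⟩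
    rw [← commutatorElement_def]
    rcases (S.good u hu.1 (by simpa using hu.2)).comm q hq x (hx u hu) with h | h <;> rw [h]
    · exact one_mem _
    · exact hu.1
  exact (this hg).2 x hx

theorem Singular.transitive {Q : G → Subgroup G} {U : Subgroup G} [Finite G]
    (S : Singular Q U) (hU : U ≠ ⊥) {x : G} (hx : x ∈ ⨅ u ∈ ((U : Set G) \ {1}), Q u)
    (hxU : x ∉ U) {u : G} (hu : u ∈ U) :
    ∃ g ∈ (⨆ u ∈ ((U : Set G) \ {1}), Q u) ⊓ Subgroup.centralizer (U : Set G),
      g * x * g⁻¹ = x * u := by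
  by_cases hu1 : u = 1
  · exact ⟨1, one_mem _, by simp [hu1]⟩
  simp only [Subgroup.mem_iInf] at hx
  have hxu := hx u ⟨hu, by simpa using hu1⟩
  obtain ⟨q, hq, hqU, hqx⟩ := (S.good u hu hu1).separate S.fun_eq U
    (fun v hv => S.le_Q hu hu1 hv) hu hxu hxU
  refine ⟨q, ⟨(le_iSup₂ (f := fun w (_ : w ∈ ((U : Set G) \ {1})) => Q w) u
    ⟨hu, by simpa using hu1⟩) hq,
    Subgroup.mem_centralizer_iff.mpr fun v hv => (comm_eq_one_iff.mp (hqU v hv)).symm⟩, ?_⟩
  rw [conj_eq_of_comm hqx]
  exact (commute_of_mem S.fun_eq hxu).symm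

end Cfsg.Agent.LargeExtraspecial
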